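import Cfsg.Agent.H731.SK.Rows
import Cfsg.Agent.H277.SK.AltSix
import Cfsg.Agent.H277.SK.Alt
import Cfsg.Agent.H284.SK.Row

/-!
# S3010: the rows `alt` and `psl` in the form of `Rows` (helper731)
-/

set_option autoImplicit false

universe u

open Subgroup Cfsg Cfsg.Agent.H282.SK

namespace Cfsg.Agent.H731.SK

/-- the alternating groups -/
theorem row_alt : DeadS.{u} fun K _ => IsAlternating K := by
  rintro G _ _ V K h ⟨n, hn, e⟩
  by_cases h6 : n = 6
  · subst h6
    exact Cfsg.Agent.H277.SK.dead_alt6 V K h e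
  · exact Cfsg.Agent.H277.SK.dead_alt V K h ⟨n, hn, h6, e⟩

/-- `PSL_n(q)`, `q` even -/
theorem row_psl : DeadS.{u} fun K _ => PslEven K := by
  rintro G _ _ V K h ⟨F, i1, i2, i3, n, hn, -, e⟩
  exact Cfsg.Agent.H284.SK.dead_psl_even (F := F) hn V K h e

end Cfsg.Agent.H731.SK
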